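import Mathlib
import Cfsg.Agent.H238.SolCent
import Cfsg.Agent.H208.QuadPSU
import Cfsg.Agent.H113.PSU.Points
import Cfsg.Agent.S0144
import Cfsg.Agent.S0278
import Cfsg.Agent.SignalizersComponents.ComponentExists

/-!
# `SC p (PSU_n)` : the rows `PSU₄(3)`, `PSU₄(2)` (helper141, tasks 1780, 1784 of helper238)
-/

set_option autoImplicit false
set_option linter.unusedSectionVars false

namespace Cfsg.Agent.H141.SolCent

open Subgroup Cfsg Cfsg.Agent.LieClassical.HermBasic Cfsg.Agent.LieClassical.HermSiegel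
  Cfsg.Agent.LieClassical.HermGen Cfsg.Agent.LieClassical.SUBasic
  Cfsg.Agent.ClassicalGeometry.PSUAutBasic Cfsg.Agent.ClassicalGeometry.PSUAutSylow
  Cfsg.Agent.H208.QuadBase Cfsg.Agent.H113.PSU.Points
open Cfsg.Agent.H238.SolCent (SC)

variable {F : Type*} [Field F] [Fintype F] {q n : ℕ}

theorem isSolvable_le {G : Type*} [Group G] {A B : Subgroup G} (h : A ≤ B) (hB : Group.IsSolvable B) :
    Group.IsSolvable A :=
  Group.isSolvable_of_isSolvable_injective (f := Subgroup.inclusion h) (Subgroup.inclusion_injective h)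

/-- an element of `SU` which commutes with a transvection modulo the centre fixes its point -/
theorem smul_pt_of_comm (hF : Fintype.card F = q ^ 2) (hn : 3 ≤ n) {p : ℕ} [Fact p.Prime] [CharP F p]
    {u : Fin n → F} (hu0 : u ≠ 0) (hu : hermForm n F q u u = 0) {μ : F} (hμ : μ + μ ^ q = 0) (hμ0 : μ ≠ 0)
    {g : SU n F q} (h : pr n F q g * pr n F q (transv hF u hu μ hμ) = pr n F q (transv hF u hu μ hμ) * pr n F q g) :
    g • pt u hu0 hu = pt u hu0 hu := by
  have h1 : pr n F q (g * transv hF u hu μ hμ * g⁻¹) = pr n F q (transv hF u hu μ hμ) := by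
    rw [map_mul, map_mul, map_inv, h, mul_inv_cancel_right]
  obtain ⟨k, hk⟩ := isPGroup_siegG hF p hu ⟨transv hF u hu μ hμ, 0, μ, isSiegel_zero hu hμ, rfl⟩
  have hk' : (transv hF u hu μ hμ) ^ p ^ k = 1 := congrArg Subtype.val hk
  have hk2 : (g * transv hF u hu μ hμ * g⁻¹) ^ p ^ k = 1 := by
    rw [conj_pow, hk', mul_one, mul_inv_cancel]
  have h2 := eq_of_pr_eq hF hn hk2 hk' h1
  have hgu0 : act g u ≠ 0 := fun h1 => hu0 ((act_eq_zero g).1 h1)
  have hgu : hermForm n F q (act g u) (act g u) = 0 := by rw [herm_act, hu]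
  obtain ⟨f, hf, hvf⟩ := exists_hyp hF hgu0 hgu
  have h3 : hermForm n F q f (act g u) ≠ 0 := by
    intro h4
    have := herm_eq_zero_swap hF h4
    rw [hvf] at this
    exact one_ne_zero this
  have h4 : act (g * transv hF u hu μ hμ * g⁻¹) f = act (transv hF u hu μ hμ) f := by rw [h2]
  rw [transv, conj_siegel, act_siegel, act_siegel] at h4
  have e0 : act g (0 : Fin n → F) = 0 := act_zero g
  rw [e0, herm_zero_right hF, smul_zero, add_zero, sub_zero, smul_zero, add_zero] at h4
  have h5 : (μ * hermForm n F q f (act g u)) • act g u = (μ * hermForm n F q f u) • u := by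
    have := congrArg (fun w => w - f) h4
    simpa using this
  have h6 : act g u = ((μ * hermForm n F q f (act g u))⁻¹ * (μ * hermForm n F q f u)) • u := by
    rw [mul_smul, ← h5, smul_smul, inv_mul_cancel₀ (mul_ne_zero hμ0 h3), one_smul]
  rw [smul_pt, pt_eq_iff]
  refine ⟨_, ?_, h6⟩
  intro hc
  rw [hc, zero_smul] at h6
  exact hgu0 h6

/-- the criterion -/
theorem sc_psu (hF : Fintype.card F = q ^ 2) (hn : 3 ≤ n) {p : ℕ} [Fact p.Prime] [CharP F p]
    (hs : ∀ x : Pt n F q, Group.IsSolvable ↥(MulAction.stabilizer (SU n F q) x)) : SC p (PSU n F q) := by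
  intro P z hz hc
  have hzp : z ^ p = 1 := by rw [← hz, pow_orderOf_eq_one]
  have hc' : ∀ x ∈ P, x * z = z * x := hc
  have hzP := mem_sylow P hzp hc'
  obtain ⟨S, hS⟩ := exists_sylow_lift p P
  obtain ⟨u, hu0, hu, hfix⟩ := exists_fixed p hF (by omega) S.isPGroup'
  have h1 := cent_sylow p hF hn S hu0 hu hfix
  have h3 : z ∈ cent ((S : Subgroup (SU n F q)).map (pr n F q)) := by
    rw [hS]
    refine ⟨hzP, ?_⟩
    exact Subgroup.mem_centralizer_iff.2 hc'
  rw [h1] at h3
  obtain ⟨_, ⟨μ, hμ, rfl⟩, rfl⟩ := h3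
  have hμ0 : μ ≠ 0 := by
    rintro rfl
    rw [transv_zero, map_one, orderOf_one] at hz
    exact (Fact.out : p.Prime).one_lt.ne hz
  have hle : centralizer ({pr n F q (transv hF u hu μ hμ)} : Set (PSU n F q)) ≤
      (MulAction.stabilizer (SU n F q) (pt u hu0 hu)).map (pr n F q) := by
    intro x hx
    obtain ⟨g, rfl⟩ := pr_surjective x
    refine ⟨g, ?_, rfl⟩
    exact smul_pt_of_comm hF hn hu0 hu hμ hμ0 (mem_centralizer_singleton_iff.1 hx)
  exact isSolvable_le hle
    (Cfsg.Agent.SignalizersComponents.ComponentExists.isSolvable_map (hs _) _)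

/-- the order of the stabiliser of a point -/
theorem card_stab (hF : Fintype.card F = q ^ 2) (x : Pt n F q) :
    Nat.card (Pt n F q) * Nat.card ↥(MulAction.stabilizer (SU n F q) x) = Nat.card (SU n F q) := by
  have : MulAction.IsPretransitive (SU n F q) (Pt n F q) := ⟨fun x y => trans_pt hF x y⟩
  rw [← MulAction.index_stabilizer_of_transitive (SU n F q) x, mul_comm]
  exact Subgroup.card_mul_index _

theorem card_pt (hF : Fintype.card F = q ^ 2) :
    (q ^ 2 - 1) * Nat.card (Pt n F q) + 1 = Nat.card {v : Fin n → F // hermForm n F q v v = 0} := by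
  classical
  have h1 := card_pts (n := n) hF (fun _ => True) (fun _ _ _ _ => trivial)
  have e1 : Nat.card {x : Pt n F q // ∀ v ∈ x.1, v ≠ 0 → True} = Nat.card (Pt n F q) :=
    Nat.card_congr (Equiv.subtypeUnivEquiv fun x v _ _ => trivial)
  rw [e1] at h1
  rw [h1]
  have e2 : {v : Fin n → F // v ≠ 0 ∧ hermForm n F q v v = 0 ∧ True} ≃
      {w : {v : Fin n → F // hermForm n F q v v = 0} // w ≠ ⟨0, herm_zero_left 0⟩} :=
    { toFun := fun v => ⟨⟨v.1, v.2.2.1⟩, fun h => v.2.1 (congrArg Subtype.val h)⟩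
      invFun := fun w => ⟨w.1.1, fun h => w.2 (Subtype.ext h), w.1.2, trivial⟩
      left_inv := fun v => rfl
      right_inv := fun w => rfl }
  rw [Nat.card_congr e2]
  have : Fintype {v : Fin n → F // hermForm n F q v v = 0} := Fintype.ofFinite _
  rw [Nat.card_eq_fintype_card, Nat.card_eq_fintype_card, Fintype.card_subtype_compl, Fintype.card_subtype_eq]
  have : 0 < Fintype.card {v : Fin n → F // hermForm n F q v v = 0} :=
    Fintype.card_pos_iff.2 ⟨⟨0, herm_zero_left 0⟩⟩
  omega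

theorem solv_three (hF : Fintype.card F = 3 ^ 2) (x : Pt 4 F 3) :
    Group.IsSolvable ↥(MulAction.stabilizer (SU 4 F 3) x) := by
  have h1 := card_pt (n := 4) hF
  rw [Cfsg.Agent.S0285.result hF 4, if_pos (by decide)] at h1
  norm_num at h1
  have hN : Nat.card (Pt 4 F 3) = 280 := by omega
  have h2 := card_stab hF x
  have h3 := Cfsg.Agent.S0278.result hF 4 (by norm_num)
  norm_num [Finset.prod_range_succ, Nat.even_iff] at h3
  rw [hN] at h2
  have h4 : Nat.card ↥(MulAction.stabilizer (SU 4 F 3) x) = 2 ^ 6 * 3 ^ 6 := by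
    have h5 : Nat.card ↥(MulAction.stabilizer (SU 4 F 3) x) = 46656 := by omega
    rw [h5]; norm_num
  exact Cfsg.Agent.S0144.result 2 3 6 6 Nat.prime_two Nat.prime_three h4

theorem solv_two (hF : Fintype.card F = 2 ^ 2) (x : Pt 4 F 2) :
    Group.IsSolvable ↥(MulAction.stabilizer (SU 4 F 2) x) := by
  have h1 := card_pt (n := 4) hF
  rw [Cfsg.Agent.S0285.result hF 4, if_pos (by decide)] at h1
  norm_num at h1
  have hN : Nat.card (Pt 4 F 2) = 45 := by omega
  have h2 := card_stab hF x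
  have h3 := Cfsg.Agent.S0278.result hF 4 (by norm_num)
  norm_num [Finset.prod_range_succ, Nat.even_iff] at h3
  rw [hN] at h2
  have h4 : Nat.card ↥(MulAction.stabilizer (SU 4 F 2) x) = 2 ^ 6 * 3 ^ 2 := by
    have h5 : Nat.card ↥(MulAction.stabilizer (SU 4 F 2) x) = 576 := by omega
    rw [h5]; norm_num
  exact Cfsg.Agent.S0144.result 2 3 6 2 Nat.prime_two Nat.prime_three h4

/-- **`PSU₄(3)`** -/
theorem sc_u43 {F : Type} [Field F] [Fintype F] (hF : Fintype.card F = 3 ^ 2) : SC 3 (Cfsg.PSU 4 F 3) := by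
  have : Fact (Nat.Prime 3) := ⟨Nat.prime_three⟩
  have : CharP F 3 := charP_of_card_eq_prime_pow hF
  exact sc_psu hF (by norm_num) (solv_three hF)

/-- **`PSU₄(2)`** -/
theorem sc_u42 {F : Type} [Field F] [Fintype F] (hF : Fintype.card F = 2 ^ 2) : SC 2 (Cfsg.PSU 4 F 2) := by
  have : Fact (Nat.Prime 2) := ⟨Nat.prime_two⟩
  have : CharP F 2 := charP_of_card_eq_prime_pow hF
  exact sc_psu hF (by norm_num) (solv_two hF)

end Cfsg.Agent.H141.SolCent
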